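import Mathlib
import Cfsg.Agent.Lib.Helper50.HUPT.Defs

/-!
# HUPT (S3360), package [XM]

The structural assembly producing the subgroup `M` with `XGood p r M` from the packages
[ORB], [FIT], [MIN], [CENT], [PPDA], [PPDC], [FIXM].
-/

set_option autoImplicit false

universe u v

namespace Cfsg.Agent.Lib.Helper15.HUPT

open Cfsg.Agent.Lib.Helper50.HUPT
open Cfsg.Agent.Lib.Helper49.HUP (Irr)

section tools

variable {G : Type v} [Group G]

/-- `ZM M` is normal when `M` is. -/
theorem zm_normal (M : Subgroup G) (hM : M.Normal) : (ZM M).Normal := by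
  constructor
  intro n hn g
  have hnM : n ∈ M := hn.1
  have hnC : n ∈ Subgroup.centralizer (M : Set G) := hn.2
  refine ⟨hM.conj_mem n hnM g, ?_⟩
  refine Subgroup.mem_centralizer_iff.mpr ?_
  intro m hm
  have hm' : g⁻¹ * m * g ∈ M := by
    have := hM.conj_mem m hm g⁻¹
    simpa using this
  have hc := (Subgroup.mem_centralizer_iff.mp hnC) (g⁻¹ * m * g) hm'
  -- hc : g⁻¹ * m * g * n = n * (g⁻¹ * m * g)
  calc m * (g * n * g⁻¹) = g * ((g⁻¹ * m * g) * n) * g⁻¹ := by group
    _ = g * (n * (g⁻¹ * m * g)) * g⁻¹ := by rw [hc]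
    _ = g * n * g⁻¹ * m := by group

/-- `ZM M` is abelian. -/
theorem zm_ab (M : Subgroup G) : Ab (ZM M) := by
  intro a ha b hb
  have hc := (Subgroup.mem_centralizer_iff.mp ha.2) b hb.1
  exact hc.symm

/-- elements of `M` central in `M` lie in `ZM M`. -/
theorem mem_zm_of_central (M : Subgroup G) (a : G) (ha : a ∈ M)
    (hc : ∀ b ∈ M, a * b = b * a) : a ∈ ZM M := by
  refine ⟨ha, ?_⟩
  refine Subgroup.mem_centralizer_iff.mpr ?_
  intro m hm
  exact (hc m hm).symm

end tools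

section rep

variable {q : ℕ} [Fact q.Prime] {V : Type u} [AddCommGroup V] [Module (ZMod q) V]
  {G : Type v} [Group G]

theorem toE_mul (ρ : G →* (V ≃ₗ[ZMod q] V)) (a b : G) :
    toE ρ (a * b) = toE ρ a * toE ρ b := by
  ext v
  simp [toE]

theorem toE_injective (ρ : G →* (V ≃ₗ[ZMod q] V)) (hinj : Function.Injective ρ) :
    Function.Injective (toE ρ) := by
  intro a b hab
  apply hinj
  apply LinearEquiv.toLinearMap_injective
  exact hab

end rep

theorem pkgXM (hOrb : PkgOrb.{u, v}) (hFit : PkgFit.{u, v}) (hMin : PkgMin.{v})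
    (hCent : PkgCent.{u, v}) (hPpdA : PkgPpdA.{u, v}) (hPpdC : PkgPpdC.{u, v})
    (hFixM : PkgFixM.{v}) : PkgXM.{u, v} := by
  intro q _ V _ _ _ _ G _ _ ρ hsolv hinj htr hni n p hn hcard hppd
  have hp : p.Prime := hppd.1
  have : Fact p.Prime := ⟨hp⟩
  have hn0 : 0 < n := by omega
  -- an element of order `p`
  have hdvd : p ∣ Nat.card G := by
    have h1 := hOrb ρ htr
    rw [hcard] at h1
    exact dvd_trans hppd.2.1 h1
  obtain ⟨x, hx⟩ := exists_prime_orderOf_dvd_card' p hdvd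
  have hxp : x ^ p = 1 := by rw [← hx]; exact pow_orderOf_eq_one x
  -- the Fitting step
  obtain ⟨r, hr, hrp, R, hRn, hRp, hRx⟩ := hFit ρ hsolv hinj htr hni n p hn0 hcard hppd x hx
  -- the minimal subgroup
  obtain ⟨M, hMn, hMR, hMx, hMcl, hMpow⟩ := hMin R x p r hp hr (Ne.symm hrp) hRn hRp hxp hRx
  have hMp : IsPGroup r M := hRp.to_le hMR
  refine ⟨r, hr, hrp, M, hMn, hMp, hMcl, hMpow, ?_, ?_⟩
  · intro hAb
    exact hMx (hCent ρ hinj htr hni n p hn0 hcard hppd x hx M hMn hAb)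
  · intro y hy a ha hcm b hb
    have hyp : y ^ p = 1 := by rw [← hy]; exact pow_orderOf_eq_one y
    refine hFixM M y p r hp hr (Ne.symm hrp) hMn hMp hyp hMcl ?_ ?_ a ha hcm b hb
    · intro c hc hcc
      exact hCent ρ hinj htr hni n p hn0 hcard hppd y hy (ZM M) (zm_normal M hMn) (zm_ab M) c
        (mem_zm_of_central M c hc hcc)
    · intro c hc d hd hyc hyd
      have hirr := hPpdA ρ hinj n p hn0 hcard hppd y hy
      have h1 : toE ρ c * toE ρ y = toE ρ y * toE ρ c := by
        rw [← toE_mul, ← toE_mul, hyc]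
      have h2 : toE ρ d * toE ρ y = toE ρ y * toE ρ d := by
        rw [← toE_mul, ← toE_mul, hyd]
      have h3 := hPpdC ρ y hirr (toE ρ c) (toE ρ d) h1 h2
      rw [← toE_mul, ← toE_mul] at h3
      exact toE_injective ρ hinj h3

end Cfsg.Agent.Lib.Helper15.HUPT
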