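import Mathlib
import Cfsg.Agent.Lib.Helper50.HUPT.Defs
import Cfsg.Agent.Lib.Helper15.HUPT.XM

/-!
# HUPT (S3360), package [TWOM]

In dimension two (`|V| = q ^ 2`), under (NI): `q` is odd and there is a normal subgroup `M` with
`|M : Z(M)| = 4`, `Z(M) ≤ Z(G)` and `C_G(M) ≤ Z(G)`.  From the packages [ABN], [SCAL], [DEG],
[CEN].
-/

set_option autoImplicit false

universe u v

namespace Cfsg.Agent.Lib.Helper15.HUPT

open Cfsg.Agent.Lib.Helper50.HUPT
open Cfsg.Agent.Lib.Helper49.HUP (Irr)

section twom

variable {q : ℕ} [Fact q.Prime] {V : Type u} [AddCommGroup V] [Module (ZMod q) V]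
  {G : Type v} [Group G]

/-- an element acting as a scalar is central (for faithful `ρ`) -/
theorem mem_center_of_scalar (ρ : G →* (V ≃ₗ[ZMod q] V)) (hinj : Function.Injective ρ)
    (a : G) (c : ZMod q) (hc : ∀ v : V, ρ a v = c • v) : a ∈ Subgroup.center G := by
  rw [Subgroup.mem_center_iff]
  intro g
  apply hinj
  ext v
  simp only [map_mul, LinearEquiv.mul_apply, hc, map_smul]

theorem mem_bot_iff_scalar (f : Module.End (ZMod q) V) :
    f ∈ (⊥ : Subalgebra (ZMod q) (Module.End (ZMod q) V)) ↔
      ∃ c : ZMod q, ∀ v, f v = c • v := by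
  rw [Algebra.mem_bot]
  constructor
  · rintro ⟨c, rfl⟩
    exact ⟨c, fun v => by simp⟩
  · rintro ⟨c, hc⟩
    refine ⟨c, ?_⟩
    ext v
    simp [hc]

theorem isFld_bot : IsFld (⊥ : Subalgebra (ZMod q) (Module.End (ZMod q) V)) := by
  constructor
  · intro f hf g _
    rw [Algebra.mem_bot] at hf
    obtain ⟨c, rfl⟩ := hf
    exact Algebra.commutes c g
  · intro f hf hne
    obtain ⟨c, hc⟩ := (mem_bot_iff_scalar f).mp hf
    have hc0 : c ≠ 0 := by
      rintro rfl
      apply hne
      ext v
      simp [hc]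
    intro v w hvw
    rw [hc, hc] at hvw
    exact smul_right_injective V hc0 hvw

theorem card_bot_end [Nontrivial V] :
    Nat.card (⊥ : Subalgebra (ZMod q) (Module.End (ZMod q) V)) = q := by
  have hinj : Function.Injective (algebraMap (ZMod q) (Module.End (ZMod q) V)) := by
    intro c d hcd
    obtain ⟨v, hv⟩ := exists_ne (0 : V)
    have h1 := congrArg (fun f : Module.End (ZMod q) V => f v) hcd
    simp only [Module.algebraMap_end_apply] at h1
    have h2 : (c - d) • v = 0 := by rw [sub_smul, h1, sub_self]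
    rcases smul_eq_zero.mp h2 with h | h
    · exact sub_eq_zero.mp h
    · exact absurd h hv
  rw [Nat.card_congr (Algebra.botEquivOfInjective hinj).toEquiv, Nat.card_zmod]

end twom

theorem zmod_two_cases : ∀ c : ZMod 2, c = 0 ∨ c = 1 := by decide

theorem pkgTwoM (hAbn : PkgAbn.{u, v}) (hScal : PkgScal.{u, v}) (hDeg : PkgDeg.{u, v})
    (hCen : PkgCen.{u, v}) : PkgTwoM.{u, v} := by
  intro q _ V _ _ _ _ G _ _ ρ hsolv hinj htr hni hcard
  -- (a) normal abelian subgroups are central
  have hA : ∀ A : Subgroup G, A.Normal → Ab A → A ≤ Subgroup.center G := by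
    intro A hAn hAab a ha
    obtain ⟨c, hc⟩ := hScal ρ hinj htr hni hcard A hAn hAab a ha
    exact mem_center_of_scalar ρ hinj a c hc
  -- (b) `G` is not abelian
  have hnab : ¬ (⊤ : Subgroup G) ≤ Subgroup.center G := by
    intro htop
    have hab : Ab (⊤ : Subgroup G) := by
      intro a _ b _
      have := htop (Subgroup.mem_top b)
      rw [Subgroup.mem_center_iff] at this
      exact this a
    obtain ⟨hcyc, -, -⟩ := hAbn ρ hinj htr ⊤ inferInstance hab
    apply hni
    refine ⟨⊤, inferInstance, hcyc, ?_⟩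
    intro W hW
    by_cases hbot : W = ⊥
    · exact Or.inl hbot
    · right
      obtain ⟨w, hwW, hw0⟩ := (Submodule.ne_bot_iff W).mp hbot
      rw [eq_top_iff]
      intro v _
      by_cases hv : v = 0
      · rw [hv]; exact W.zero_mem
      · obtain ⟨g, hg⟩ := htr w v hw0 hv
        rw [← hg]
        exact hW g (Subgroup.mem_top g) w hwW
  -- (c) a minimal non-central normal subgroup
  obtain ⟨M, ⟨hMn, hMnc⟩, hmin⟩ := Set.exists_min_image
    {N : Subgroup G | N.Normal ∧ ¬ N ≤ Subgroup.center G} (fun N => Nat.card N)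
    (Set.toFinite _) ⟨⊤, inferInstance, hnab⟩
  have hmin' : ∀ N : Subgroup G, N.Normal → N ≤ M → N ≠ M → N ≤ Subgroup.center G := by
    intro N hNn hNM hne
    by_contra hnc
    have h1 := hmin N ⟨hNn, hnc⟩
    exact hne (Subgroup.eq_of_le_of_card_ge hNM h1)
  have hMnab : ¬ Ab M := fun hab => hMnc (hA M hMn hab)
  have hZ : ∀ a ∈ M, (∀ b ∈ M, a * b = b * a) → a ∈ Subgroup.center G := by
    intro a ha hc
    exact hA (ZM M) (zm_normal M hMn) (zm_ab M) (mem_zm_of_central M a ha hc)
  have hcomm : ⁅M, M⁆ ≤ Subgroup.center G := by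
    have hcn : (⁅M, M⁆ : Subgroup G).Normal := by
      have := hMn
      infer_instance
    have hle : ⁅M, M⁆ ≤ M := by
      have := hMn
      exact Subgroup.commutator_le_right M M
    apply hmin' _ hcn hle
    intro heq
    have hk : ∀ k, M ≤ derivedSeries G k := by
      intro k
      induction k with
      | zero => exact le_top
      | succ k ih =>
        rw [derivedSeries_succ]
        calc M = ⁅M, M⁆ := heq.symm
          _ ≤ _ := Subgroup.commutator_mono ih ih
    obtain ⟨k, hk0⟩ := hsolv.solvable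
    have hbot : M = ⊥ := by
      rw [eq_bot_iff, ← hk0]; exact hk k
    apply hMnc
    rw [hbot]; exact bot_le
  have hcl2 : Cl2 M := by
    intro a ha b hb c _
    have hmem : cm a b ∈ Subgroup.center G :=
      hcomm (Subgroup.commutator_mem_commutator ha hb)
    rw [Subgroup.mem_center_iff] at hmem
    exact (hmem c).symm
  -- (d) the degree bound with `K = ⊥`
  have hfld := isFld_bot (q := q) (V := V)
  have h3 : ∀ a ∈ M, (∀ b ∈ M, a * b = b * a) →
      toE ρ a ∈ (⊥ : Subalgebra (ZMod q) (Module.End (ZMod q) V)) := by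
    intro a ha hc
    obtain ⟨c, hc'⟩ := hScal ρ hinj htr hni hcard (ZM M) (zm_normal M hMn) (zm_ab M) a
      (mem_zm_of_central M a ha hc)
    exact (mem_bot_iff_scalar _).mpr ⟨c, hc'⟩
  have h4 : ∀ a ∈ M, ∀ f ∈ (⊥ : Subalgebra (ZMod q) (Module.End (ZMod q) V)),
      toE ρ a * f = f * toE ρ a := by
    intro a _ f hf
    rw [Algebra.mem_bot] at hf
    obtain ⟨c, rfl⟩ := hf
    exact (Algebra.commutes c (toE ρ a)).symm
  obtain ⟨m, hm1, hm2⟩ := hDeg ρ hinj M ⊥ hfld hcl2 h3 h4
  rw [card_bot_end, hcard] at hm1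
  have hq2 : 2 ≤ q := (Fact.out : q.Prime).two_le
  have hm : m = 2 := (Nat.pow_right_injective hq2 hm1).symm
  subst hm
  have hidx : (Subgroup.center M).index = 4 := by
    have hne0 : (Subgroup.center M).index ≠ 0 := Subgroup.index_ne_zero_of_finite
    have hnc : ¬ IsCyclic (M ⧸ Subgroup.center M) := by
      intro hcyc
      apply hMnab
      intro a ha b hb
      have hcm := MonoidHom.isMulCommutative_of_isCyclic_of_ker_le_center
        (QuotientGroup.mk' (Subgroup.center M)) (by rw [QuotientGroup.ker_mk'])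
      have := hcm.is_comm.comm (⟨a, ha⟩ : M) ⟨b, hb⟩
      exact congrArg Subtype.val this
    have hcard_q : Nat.card (M ⧸ Subgroup.center M) = (Subgroup.center M).index :=
      (Subgroup.index_eq_card _).symm
    have hle4 : (Subgroup.center M).index ≤ 4 := by simpa using hm2
    have h5 : (Subgroup.center M).index = 1 ∨ (Subgroup.center M).index = 2 ∨
        (Subgroup.center M).index = 3 ∨ (Subgroup.center M).index = 4 := by omega
    rcases h5 with h | h | h | h
    · exfalso; apply hnc
      rw [h] at hcard_q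
      have : Subsingleton (M ⧸ Subgroup.center M) :=
        (Nat.card_eq_one_iff_unique.mp hcard_q).1
      exact isCyclic_of_subsingleton
    · exfalso; apply hnc
      rw [h] at hcard_q
      have : Fact (Nat.Prime 2) := ⟨Nat.prime_two⟩
      exact isCyclic_of_prime_card hcard_q
    · exfalso; apply hnc
      rw [h] at hcard_q
      have : Fact (Nat.Prime 3) := ⟨Nat.prime_three⟩
      exact isCyclic_of_prime_card hcard_q
    · exact h
  -- (e) the centralizer of `M`
  have hW : ∀ g : G, (∀ a ∈ M, g * a = a * g) → g ∈ Subgroup.center G := by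
    intro g hg
    have hcardV : Nat.card V =
        Nat.card (⊥ : Subalgebra (ZMod q) (Module.End (ZMod q) V)) ^ 2 := by
      rw [card_bot_end, hcard]
    have hmem := hCen ρ hinj M ⊥ hfld hcl2 h3 h4 2 hcardV (by rw [hidx]; norm_num) g hg (by
      intro f hf
      rw [Algebra.mem_bot] at hf
      obtain ⟨c, rfl⟩ := hf
      exact (Algebra.commutes c (toE ρ g)).symm)
    obtain ⟨c, hc⟩ := (mem_bot_iff_scalar _).mp hmem
    exact mem_center_of_scalar ρ hinj g c hc
  -- (f) `q` is odd
  have hodd : Odd q := by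
    rcases (Fact.out : q.Prime).eq_two_or_odd' with h2 | hodd
    · exfalso
      subst h2
      unfold Cfsg.Agent.Lib.Helper50.HUPT.Ab at hMnab
      push Not at hMnab
      obtain ⟨a, ha, b, hb, hab⟩ := hMnab
      have hz : cm a b ∈ Subgroup.center G :=
        hcomm (Subgroup.commutator_mem_commutator ha hb)
      have habc : Ab (Subgroup.center G) := by
        intro x _ y hy
        exact Subgroup.mem_center_iff.mp hy x
      obtain ⟨c, hc⟩ := hScal ρ hinj htr hni hcard (Subgroup.center G) inferInstance habc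
        (cm a b) hz
      rcases zmod_two_cases c with rfl | rfl
      · obtain ⟨v, hv⟩ := exists_ne (0 : V)
        have h0 := hc v
        rw [zero_smul] at h0
        exact hv ((LinearEquiv.map_eq_zero_iff _).mp h0)
      · have h1 : cm a b = 1 := by
          apply hinj
          ext v
          simp [hc]
        apply hab
        have h2 : a * b = (a * b * a⁻¹ * b⁻¹) * (b * a) := by group
        rw [h2]
        have h3' : a * b * a⁻¹ * b⁻¹ = 1 := h1
        rw [h3', one_mul]
    · exact hodd
  exact ⟨hodd, M, hMn, hidx, hZ, hW⟩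

end Cfsg.Agent.Lib.Helper15.HUPT
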